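import Cfsg.Agent.Lib.SporadicB.HeCent.Check
import Cfsg.Agent.Lib.SporadicB.J3.Engine
import Cfsg.Agent.S1695

/-! The centraliser of an involution of He and the centraliser of a transvection of SL(5,2). -/

set_option autoImplicit false
set_option linter.all false
set_option Elab.async false

namespace CfsgLib.SporadicB.HeCent

open CfsgLib.SporRecognition.CosetCert
open CfsgLib.SporRecognition.Cert.He2058 (certified subW subT subT_spec lab lab_spec tabs T4)
open Matrix

attribute [local irreducible] key0 key1 mc tb0 tb1 tb2 evia esrc srtK srtM mg imgs cvia csrc srtC T4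

/-- The relators of He. -/
abbrev rels : Set (FreeGroup Cfsg.Spor.He.Gen) :=
  Cfsg.Spor.coxRelators Cfsg.Spor.He.edges ∪ {r | r ∈ Cfsg.Spor.He.extra}

/-- The presented group. -/
abbrev GG : Type := PresentedGroup rels

/-- The action on 2058 points. -/
noncomputable def sigma : GG →* Equiv.Perm (Fin 2058) := certified.hom

/-- The subgroup of index 2058. -/
noncomputable def WW : Subgroup GG := wordSubgroup rels subW

theorem subW_length : subW.length = 7 := rfl

/-- Its seven generators. -/
noncomputable def gen (j : Fin 7) : WW :=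
  ⟨evalW (PresentedGroup.of (rels := rels)) (subW[(j : Nat)]'(by rw [subW_length]; exact j.2)),
    Subgroup.subset_closure (List.mem_map_of_mem (List.getElem_mem _))⟩

local notation "ev" => evalW (PresentedGroup.of (rels := rels))

theorem sigma_evalW (w : List (Cfsg.Spor.He.Gen × Bool)) (u : Fin 2058) :
    ((sigma (ev w) u : Fin 2058) : Nat) = trace (wordTabs tabs w) u := by
  show ((certified.hom _ u : Fin 2058) : Nat) = _
  erw [certified.hom_evalW, evalW_tabPerm]

theorem sigma_gen (j : Fin 7) (u : Fin 2058) : ((sigma (gen j : GG) u : Fin 2058) : Nat) = sel subT j u := by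
  show ((sigma (ev _) u : Fin 2058) : Nat) = _
  rw [sigma_evalW, subT_spec j (by rw [subW_length]; exact j.2) u u.2]

/-- The involution. -/
noncomputable def zz : GG := PresentedGroup.of Cfsg.Spor.He.Gen.d

theorem zz_eq : zz = (gen 2 : GG) := by
  show _ = ev [(Cfsg.Spor.He.Gen.d, true)]
  simp [evalW_eq_prod, zz]

theorem sigma_zz (u : Fin 2058) : ((sigma zz u : Fin 2058) : Nat) = T4 u := by
  rw [zz_eq, sigma_gen]
  simp [sel_eq, CfsgLib.SporRecognition.Cert.He2058.subT]

theorem mem_WW_iff (g : GG) : sigma g 0 = 0 ↔ g ∈ WW := by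
  show certified.hom g 0 = 0 ↔ g ∈ wordSubgroup rels subW
  obtain ⟨e, he, he0⟩ := certified.exists_equiv
  have this := he g ((1 : GG) : GG ⧸ wordSubgroup rels subW)
  rw [he0] at this
  erw [← this]
  rw [← he0]
  erw [e.injective.eq_iff, MulAction.Quotient.smul_coe, QuotientGroup.eq, smul_eq_mul, mul_one, mul_one, inv_mem_iff]

theorem moved : Nat.beq (T4 2) 2 = false := by
  unfold T4
  decide +kernel

theorem sigma_injective : Function.Injective sigma := by
  obtain ⟨hsimp, -⟩ : Cfsg.IsHe GG := Cfsg.Agent.S1695.result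
  rw [← MonoidHom.ker_eq_bot_iff]
  refine (hsimp.eq_bot_or_eq_top_of_normal sigma.ker inferInstance).resolve_right fun htop => ?_
  have h : sigma zz = 1 := MonoidHom.mem_ker.mp (htop ▸ Subgroup.mem_top _)
  have h2 := sigma_zz ⟨2, by norm_num⟩
  rw [h] at h2
  exact Nat.ne_of_beq_eq_false moved h2.symm

theorem orderOf_zz : orderOf zz = 2 := by
  refine orderOf_eq_prime ?_ ?_
  · apply sigma_injective
    rw [pow_two, map_mul, map_one]
    ext u
    rw [Equiv.Perm.mul_apply, sigma_zz, sigma_zz]
    have := (certified.tables Cfsg.Spor.He.Gen.d true u u.2).2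
    exact this
  · intro h
    have h2 := sigma_zz ⟨2, by norm_num⟩
    rw [h, map_one] at h2
    exact Nat.ne_of_beq_eq_false moved h2.symm

/-- Labels are invariant under the subgroup. -/
theorem lab_invariant {w : GG} (hw : w ∈ WW) : ∀ u : Fin 2058, lab (sigma w u : Fin 2058) = lab u := by
  unfold WW wordSubgroup at hw
  induction hw using Subgroup.closure_induction with
  | mem x hx =>
    intro u
    obtain ⟨v, hv, rfl⟩ := List.mem_map.mp hx
    obtain ⟨j, hj, rfl⟩ := List.getElem_of_mem hv
    rw [sigma_evalW, ← subT_spec j hj u u.2]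
    exact lab_spec j hj u u.2
  | one => intro u; simp
  | mul a b _ _ ha hb => intro u; rw [map_mul, Equiv.Perm.mul_apply, ha, hb]
  | inv a _ ha =>
    intro u
    have := ha ((sigma a)⁻¹ u)
    rw [show sigma a ((sigma a)⁻¹ u) = u from (sigma a).apply_symm_apply u] at this
    rw [map_inv]
    exact this.symm

theorem card_WW : Nat.card WW = 1958400 := by
  obtain ⟨-, hcard⟩ : Cfsg.IsHe GG := Cfsg.Agent.S1695.result
  have h1 := WW.card_mul_index
  rw [show WW.index = 2058 from certified.index_eq, hcard] at h1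
  refine Nat.eq_of_mul_eq_mul_right (by norm_num : 0 < 2058) (h1.trans ?_)
  norm_num

theorem inj_of_sorted {n : Nat} (f srt : Nat → Nat) (hlt : ∀ j, j < n → srt j < n)
    (hs : ∀ a, a + 1 < n → f (srt a) < f (srt (a + 1))) (x y : Fin n) (h : f x = f y) : x = y := by
  have hmono : ∀ a b, a < b → b < n → f (srt a) < f (srt b) := by
    intro a b hab
    induction b, hab using Nat.le_induction with
    | base => exact fun hb => hs a hb
    | succ b hb ih => exact fun hN => (ih (by omega)).trans (hs b hN)
  have hinj : Function.Injective fun a : Fin n => (⟨srt a, hlt a a.2⟩ : Fin n) := by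
    intro a b hab
    have e : f (srt a) = f (srt b) := by rw [show srt a = srt b from congrArg Fin.val hab]
    rcases lt_trichotomy (a : Nat) b with hl | he | hl
    · exact absurd e (hmono _ _ hl b.2).ne
    · exact Fin.ext he
    · exact absurd e (hmono _ _ hl a.2).ne'
  obtain ⟨a, rfl⟩ := Finite.surjective_of_injective hinj x
  obtain ⟨b, rfl⟩ := Finite.surjective_of_injective hinj y
  rcases lt_trichotomy (a : Nat) b with hl | he | hl
  · exact absurd h (hmono _ _ hl b.2).ne
  · rw [Fin.ext he]
  · exact absurd h (hmono _ _ hl a.2).ne'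

theorem mask_testBit (j u : Nat) : (mask j).testBit u = idx16.any (fun i => decide (img j i = u)) := by
  unfold mask
  induction idx16 with
  | nil => simp
  | cons i l ih =>
    show Nat.testBit (_ ||| Nat.shiftLeft 1 (img j i)) u = _
    rw [Nat.testBit_or, ih, List.any_cons, Bool.or_comm]
    congr 1
    show (1 <<< img j i).testBit u = _
    rw [Nat.one_shiftLeft, Nat.testBit_two_pow]

/-- The centraliser of `d` in the point stabiliser is small. -/
theorem card_cent_WW : Nat.card (Subgroup.centralizer ({gen 2} : Set WW)) ≤ 512 := by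
  have : Finite WW := Nat.finite_of_card_ne_zero (by rw [card_WW]; norm_num)
  have hcs := fun j hj => allBelow_spec class_all j hj
  simp only [classStep, Bool.and_eq_true, Nat.blt_eq, List.all_eq_true] at hcs
  have hh : ∀ j, j < 3825 → ∃ h : WW, ∀ i ∈ idx16, ∀ (h0 : img 0 i < 2058),
      ((sigma (h : GG) ⟨img 0 i, h0⟩ : Fin 2058) : Nat) = img j i := by
    intro j
    induction j using Nat.strongRecOn with
    | _ j ih =>
      intro hj
      by_cases hj0 : j = 0
      · exact ⟨1, fun i _ h0 => by rw [hj0, Subgroup.coe_one, map_one]; rfl⟩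
      obtain ⟨⟨⟨hb, -⟩, -⟩, -⟩ := hcs j hj
      rw [show Nat.beq j 0 = false from Bool.eq_false_iff.mpr fun e => hj0 (Nat.eq_of_beq_eq_true e), cond_false] at hb
      simp only [Bool.and_eq_true, Nat.blt_eq, List.all_eq_true, Nat.beq_eq] at hb
      obtain ⟨⟨hv, hsrc⟩, hi⟩ := hb
      obtain ⟨h, hh⟩ := ih _ hsrc (hsrc.trans hj)
      refine ⟨gen ⟨cvia j, hv⟩ * h, fun i hi' h0 => ?_⟩
      rw [Subgroup.coe_mul, map_mul, Equiv.Perm.mul_apply, sigma_gen, hh i hi' h0]
      exact hi i hi'
  choose h hh using fun j : Fin 3825 => hh j j.2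
  have hbase : ∀ u : Fin 2058, (∃ i ∈ idx16, img 0 i = (u : Nat)) ↔ T4 u = (u : Nat) ∧ lab u = 1 := by
    intro u
    have e := allBelow_spec base_set_ok u u.2
    simp only [beq_iff_eq, bne_eq_false_iff_eq, Bool.xor] at e
    have e1 : (Nat.beq (T4 u) u && Nat.beq (lab u) 1) = idx16.any fun i => Nat.beq (img 0 i) u := by
      cases hA : (Nat.beq (T4 u) u && Nat.beq (lab u) 1) <;> cases hB : (idx16.any fun i => Nat.beq (img 0 i) u) <;>
        simp [hA, hB] at e ⊢
    constructor
    · intro ⟨i, hi, he⟩
      have : (Nat.beq (T4 u) u && Nat.beq (lab u) 1) = true := by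
        rw [e1, List.any_eq_true]; exact ⟨i, hi, by rw [he]; exact Nat.beq_refl _⟩
      simpa [Bool.and_eq_true] using this
    · intro hu
      have : (idx16.any fun i => Nat.beq (img 0 i) u) = true := by
        rw [← e1]; simp [hu]
      rw [List.any_eq_true] at this
      obtain ⟨i, hi, he⟩ := this
      exact ⟨i, hi, Nat.eq_of_beq_eq_true he⟩
  have himg : ∀ (j : Fin 3825) (i : Nat), i ∈ idx16 → img j i < 2058 := fun j i hi => by
    simpa using (hcs j j.2).1.1.2 i hi
  -- the masks only depend on the coset of the centraliser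
  have hsub : ∀ (a b : Fin 3825), (h a)⁻¹ * h b ∈ Subgroup.centralizer ({gen 2} : Set WW) →
      ∀ i ∈ idx16, ∃ i' ∈ idx16, img a i' = img b i := by
    intro a b hab i hi
    have h0 := himg ⟨0, by norm_num⟩ i hi
    set u : Fin 2058 := ⟨img 0 i, h0⟩
    obtain ⟨hu1, hu2⟩ := (hbase u).mp ⟨i, hi, rfl⟩
    set v : Fin 2058 := sigma (((h a)⁻¹ * h b : WW) : GG) u with hv
    have hv2 : lab v = 1 := by rw [hv, lab_invariant ((h a)⁻¹ * h b).2, hu2]
    have hcomm : zz * (((h a)⁻¹ * h b : WW) : GG) = (((h a)⁻¹ * h b : WW) : GG) * zz := by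
      rw [zz_eq, ← Subgroup.coe_mul, ← Subgroup.coe_mul,
        (Subgroup.mem_centralizer_singleton_iff.mp hab).symm]
    have hv1 : T4 v = (v : Nat) := by
      rw [← sigma_zz, hv, ← Equiv.Perm.mul_apply, ← map_mul, hcomm, map_mul, Equiv.Perm.mul_apply,
        show sigma zz u = u from Fin.ext ((sigma_zz u).trans hu1)]
    obtain ⟨i', hi', he⟩ := (hbase v).mpr ⟨hv1, hv2⟩
    refine ⟨i', hi', ?_⟩
    have ha := hh a i' hi' (himg ⟨0, by norm_num⟩ i' hi')
    rw [← hh b i hi h0, ← ha]
    congr 1
    rw [show (⟨img 0 i', himg ⟨0, by norm_num⟩ i' hi'⟩ : Fin 2058) = v from Fin.ext he, hv,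
      ← Equiv.Perm.mul_apply, ← map_mul, ← Subgroup.coe_mul, mul_inv_cancel_left]
  have hsrt : ∀ a, a + 1 < 3825 → mask (srtC a) < mask (srtC (a + 1)) := by
    intro a ha
    have := (hcs (a + 1) ha).2
    rw [show Nat.beq (a + 1) 0 = false from rfl, cond_false, Nat.blt_eq] at this
    exact this
  have hinj : ∀ a b : Fin 3825, mask a = mask b → a = b := inj_of_sorted (fun j => mask j) srtC
    (fun j hj => (hcs j hj).1.2) hsrt
  have key : Function.Injective fun a : Fin 3825 =>
      (h a : WW ⧸ Subgroup.centralizer ({gen 2} : Set WW)) := by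
    intro a b hab
    have hab' := QuotientGroup.eq.mp hab
    apply hinj
    apply Nat.eq_of_testBit_eq
    intro u
    rw [mask_testBit, mask_testBit, Bool.eq_iff_iff, List.any_eq_true, List.any_eq_true]
    simp only [decide_eq_true_eq]
    constructor
    · rintro ⟨i, hi, rfl⟩
      exact hsub b a (by simpa using inv_mem hab') i hi
    · rintro ⟨i, hi, rfl⟩
      exact hsub a b hab' i hi
  have h1 := Nat.card_le_card_of_injective _ key
  rw [Nat.card_fin] at h1
  have h2 := (Subgroup.centralizer ({gen 2} : Set WW)).card_mul_index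
  rw [card_WW, Subgroup.index] at h2
  nlinarith

/-- The centraliser of `d`. -/
noncomputable def CC : Subgroup GG := Subgroup.centralizer ({zz} : Set GG)

theorem card_CC_le : Nat.card CC ≤ 21504 := by
  have : Finite GG := Nat.finite_of_card_ne_zero (by
    obtain ⟨-, hcard⟩ : Cfsg.IsHe GG := Cfsg.Agent.S1695.result
    rw [hcard]; norm_num)
  let act : MulAction CC (Fin 2058) := MulAction.compHom _ (sigma.comp CC.subtype)
  have hsmul : ∀ (c : CC) (u : Fin 2058), c • u = sigma (c : GG) u := fun _ _ => rfl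
  have horb : (MulAction.orbit CC (0 : Fin 2058)).ncard ≤ 42 := by
    have h42 := fix_count
    rw [← ncard_lab (by norm_num : 2058 ≤ 2 ^ 12)] at h42
    rw [← h42]
    refine Set.ncard_le_ncard ?_ (Set.toFinite _)
    rintro u ⟨c, rfl⟩
    show (bif Nat.beq (T4 (c • (0 : Fin 2058) : Fin 2058)) (c • (0 : Fin 2058) : Fin 2058) then 1 else 0) = 1
    have hc : zz * (c : GG) = (c : GG) * zz := (Subgroup.mem_centralizer_singleton_iff.mp c.2).symm
    have h0 : sigma zz 0 = 0 := (mem_WW_iff _).mpr (zz_eq ▸ (gen 2).2)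
    have : T4 (c • (0 : Fin 2058) : Fin 2058) = ((c • (0 : Fin 2058) : Fin 2058) : Nat) := by
      rw [← sigma_zz, hsmul, ← Equiv.Perm.mul_apply, ← map_mul, hc, map_mul, Equiv.Perm.mul_apply, h0]
    rw [this, Nat.beq_refl]
    rfl
  have hst : Nat.card (MulAction.stabilizer CC (0 : Fin 2058)) ≤ 512 := by
    refine le_trans (Nat.card_le_card_of_injective (fun c => (⟨⟨((c : CC) : GG), (mem_WW_iff _).mp c.2⟩, ?_⟩ :
      Subgroup.centralizer ({gen 2} : Set WW))) ?_) card_cent_WW
    · rw [Subgroup.mem_centralizer_singleton_iff]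
      apply Subtype.ext
      rw [Subgroup.coe_mul, Subgroup.coe_mul, ← zz_eq]
      exact Subgroup.mem_centralizer_singleton_iff.mp (c : CC).2
    · intro x y e
      exact Subtype.ext (Subtype.ext (congrArg (fun t : Subgroup.centralizer ({gen 2} : Set WW) => ((t : WW) : GG)) e))
  rw [← MulAction.index_stabilizer] at horb
  have := (MulAction.stabilizer CC (0 : Fin 2058)).card_mul_index
  nlinarith

end CfsgLib.SporadicB.HeCent
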