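import Mathlib

/-! The centraliser of a transvection of SL(5,2) has at most 21504 elements. -/

set_option autoImplicit false
set_option linter.all false

namespace CfsgLib.SporadicB.HeCent

open Matrix

theorem zmod2_ne_zero {x : ZMod 2} (h : x ≠ 0) : x = 1 := by
  fin_cases x
  · exact absurd rfl h
  · rfl

theorem shape {g : Matrix.SpecialLinearGroup (Fin 5) (ZMod 2)} {s : Matrix.SpecialLinearGroup (Fin 5) (ZMod 2)}
    (hs : (s : Matrix (Fin 5) (Fin 5) (ZMod 2)) = Matrix.transvection 0 1 1) (h : g * s = s * g) :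
    (∀ r, r ≠ 0 → g.1 r 0 = 0) ∧ (∀ c, c ≠ 1 → g.1 1 c = 0) ∧ g.1 0 0 = 1 ∧ g.1 1 1 = 1 := by
  have h' : (g : Matrix (Fin 5) (Fin 5) (ZMod 2)) * Matrix.transvection 0 1 1 =
      Matrix.transvection 0 1 1 * (g : Matrix (Fin 5) (Fin 5) (ZMod 2)) := by
    rw [← hs]
    exact congrArg Subtype.val h
  have h01 : (0 : Fin 5) ≠ 1 := by decide
  have hr : ∀ r, r ≠ 0 → g.1 r 0 = 0 := by
    intro r hr
    have e := congrFun (congrFun h' r) 1
    have e' := (Matrix.mul_transvection_apply_same (i := (0 : Fin 5)) (j := 1) r (1 : ZMod 2) g.1).symm.trans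
      (e.trans (Matrix.transvection_mul_apply_of_ne (i := (0 : Fin 5)) (j := 1) r 1 hr (1 : ZMod 2) g.1))
    rw [one_mul] at e'
    exact add_eq_left.mp e'
  have hc : ∀ c, c ≠ 1 → g.1 1 c = 0 := by
    intro c hc
    have e := congrFun (congrFun h' 0) c
    have e' := (Matrix.mul_transvection_apply_of_ne (i := (0 : Fin 5)) (j := 1) 0 c hc (1 : ZMod 2) g.1).symm.trans
      (e.trans (Matrix.transvection_mul_apply_same (i := (0 : Fin 5)) (j := 1) c (1 : ZMod 2) g.1))
    rw [one_mul] at e'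
    exact add_eq_left.mp e'.symm
  have h00 : g.1 0 0 = 1 := by
    refine zmod2_ne_zero fun h0 => ?_
    have hd := g.2
    rw [Matrix.det_eq_zero_of_column_eq_zero (0 : Fin 5) fun r => ?_] at hd
    · exact zero_ne_one hd
    · by_cases hr0 : r = 0
      · rw [hr0]; exact h0
      · exact hr r hr0
  refine ⟨hr, hc, h00, ?_⟩
  refine zmod2_ne_zero fun h0 => ?_
  have hd := g.2
  rw [Matrix.det_eq_zero_of_row_eq_zero (1 : Fin 5) fun c => ?_] at hd
  · exact zero_ne_one hd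
  · by_cases hc1 : c = 1
    · rw [hc1]; exact h0
    · exact hc c hc1

theorem card_transCent_le (s : Matrix.SpecialLinearGroup (Fin 5) (ZMod 2))
    (hs : (s : Matrix (Fin 5) (Fin 5) (ZMod 2)) = Matrix.transvection 0 1 1) :
    Nat.card (Subgroup.centralizer ({s} : Set (Matrix.SpecialLinearGroup (Fin 5) (ZMod 2)))) ≤ 21504 := by
  have : Fact (Nat.Prime 2) := ⟨Nat.prime_two⟩
  let S := Subgroup.centralizer ({s} : Set (Matrix.SpecialLinearGroup (Fin 5) (ZMod 2)))
  have hsh : ∀ g : S, _ := fun g => shape hs (Subgroup.mem_centralizer_singleton_iff.mp g.2)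
  let blk : S → Matrix (Fin 3) (Fin 3) (ZMod 2) := fun g => (g.1.1).submatrix (Fin.natAdd 2) (Fin.natAdd 2)
  have hblk : ∀ g : S, blk g * blk g⁻¹ = 1 := by
    intro g
    ext i j
    have e := congrFun (congrFun (congrArg (fun x : S => x.1.1) (mul_inv_cancel g)) (Fin.natAdd 2 i)) (Fin.natAdd 2 j)
    replace e : (g.1.1 * (g⁻¹ : S).1.1) (Fin.natAdd 2 i) (Fin.natAdd 2 j) =
        (1 : Matrix (Fin 5) (Fin 5) (ZMod 2)) (Fin.natAdd 2 i) (Fin.natAdd 2 j) := e
    rw [Matrix.mul_apply, Fin.sum_univ_five] at e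
    have z0 : g.1.1 (Fin.natAdd 2 i) 0 = 0 := (hsh g).1 _ (by fin_cases i <;> decide)
    have z1 : (g⁻¹ : S).1.1 1 (Fin.natAdd 2 j) = 0 := (hsh g⁻¹).2.1 _ (by fin_cases j <;> decide)
    rw [z0, z1, zero_mul, mul_zero, zero_add, zero_add] at e
    rw [Matrix.mul_apply, Fin.sum_univ_three, Matrix.one_apply]
    simp only [blk, Matrix.submatrix_apply, show (Fin.natAdd 2 (0 : Fin 3)) = (2 : Fin 5) from rfl,
      show (Fin.natAdd 2 (1 : Fin 3)) = (3 : Fin 5) from rfl, show (Fin.natAdd 2 (2 : Fin 3)) = (4 : Fin 5) from rfl]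
    rw [e]
    simp [Matrix.one_apply, Fin.ext_iff]
  let u : S → GL (Fin 3) (ZMod 2) := fun g => ⟨blk g, blk g⁻¹, hblk g, mul_eq_one_comm.mp (hblk g)⟩
  let f : S → (Fin 4 → ZMod 2) × (Fin 3 → ZMod 2) × GL (Fin 3) (ZMod 2) :=
    fun g => (fun c => g.1.1 0 c.succ, fun r => g.1.1 (Fin.natAdd 2 r) 1, u g)
  have hf : Function.Injective f := by
    intro g g' h
    simp only [f, Prod.mk.injEq, funext_iff] at h
    obtain ⟨h0, h1, h2⟩ := h
    have h2' : ∀ (i j : Fin 3), g.1.1 (Fin.natAdd 2 i) (Fin.natAdd 2 j) = g'.1.1 (Fin.natAdd 2 i) (Fin.natAdd 2 j) :=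
      fun i j => congrFun (congrFun (show blk g = blk g' from congrArg Units.val h2) i) j
    obtain ⟨a0, a1, a2, a3⟩ := hsh g
    obtain ⟨b0, b1, b2, b3⟩ := hsh g'
    apply Subtype.ext
    apply Subtype.ext
    ext r c
    by_cases hr0 : r = 0
    · subst hr0
      rcases Fin.eq_zero_or_eq_succ c with rfl | ⟨c', rfl⟩
      · rw [a2, b2]
      · exact h0 c'
    by_cases hr1 : r = 1
    · subst hr1
      by_cases hc : c = 1
      · subst hc; rw [a3, b3]
      · rw [a1 c hc, b1 c hc]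
    by_cases hc0 : c = 0
    · subst hc0; rw [a0 r hr0, b0 r hr0]
    obtain ⟨i, rfl⟩ : ∃ i : Fin 3, r = Fin.natAdd 2 i := by
      revert hr0 hr1; fin_cases r <;> decide
    by_cases hc1 : c = 1
    · subst hc1; exact h1 i
    obtain ⟨j, rfl⟩ : ∃ j : Fin 3, c = Fin.natAdd 2 j := by
      revert hc0 hc1; fin_cases c <;> decide
    exact h2' i j
  refine (Nat.card_le_card_of_injective f hf).trans ?_
  rw [Nat.card_prod, Nat.card_prod, Nat.card_fun, Nat.card_fun, Matrix.card_GL_field]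
  simp [Fin.prod_univ_three]

end CfsgLib.SporadicB.HeCent
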