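import Cfsg.Agent.Lib.SporadicB.HeCent.Basic
import Cfsg.Agent.Lib.SporadicB.HeCent.Trans

/-! The isomorphism with the centraliser of a transvection. -/

set_option autoImplicit false
set_option linter.all false
set_option Elab.async false

namespace CfsgLib.SporadicB.HeCent

open CfsgLib.SporRecognition.CosetCert
open CfsgLib.SporRecognition.Cert.He2058 (tabs T4)
open Matrix

attribute [local irreducible] key0 key1 mc tb0 tb1 tb2 evia esrc srtK srtM mg T4

local notation "ev" => evalW (PresentedGroup.of (rels := rels))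

/-- The matrix with a given code. -/
noncomputable def mat5 (c : Nat) : Matrix (Fin 5) (Fin 5) (ZMod 2) :=
  Matrix.of fun r k => if c.testBit (5 * (r : Nat) + k) then 1 else 0

theorem field5 (C : Nat) (r : Nat) (k : Fin 5) : (field C 5 r).testBit k = C.testBit (5 * r + k) := by
  show ((C >>> (5 * r)) &&& (2 ^ 5 - 1)).testBit k = _
  rw [Nat.testBit_and, Nat.testBit_two_pow_sub_one, Nat.testBit_shiftRight, decide_eq_true k.2, Bool.and_true]

theorem cbit_eq (A i : Nat) : cbit A i = A.testBit i := by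
  unfold cbit
  show Nat.beq ((A >>> i) &&& 1) 1 = _
  rw [show A.testBit i = (A >>> i).testBit 0 by rw [Nat.testBit_shiftRight, Nat.add_zero], Nat.and_one_is_mod,
    Nat.testBit_zero]
  rcases Nat.mod_two_eq_zero_or_one (A >>> i) with h | h <;> rw [h] <;> rfl

theorem bit_mul (a b : Bool) : ((if a then 1 else 0) * (if b then 1 else 0) : ZMod 2) = if (a && b) then 1 else 0 := by
  cases a <;> cases b <;> simp

theorem bit_add (a b : Bool) : ((if a then 1 else 0) + (if b then 1 else 0) : ZMod 2) = if (xor a b) then 1 else 0 := by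
  cases a <;> cases b <;> simp <;> decide

theorem cond_testBit (a : Bool) (n : Nat) (k : Nat) : (bif a then n else 0).testBit k = (a && n.testBit k) := by
  cases a <;> simp

theorem mul_entry (A B : Nat) (r k : Fin 5) :
    (mat5 A * mat5 B) r k = if (prodRow A B r).testBit k then 1 else 0 := by
  have hx : ∀ x y : Nat, Nat.xor x y = x ^^^ y := fun _ _ => rfl
  simp only [Matrix.mul_apply, Fin.sum_univ_five, mat5, Matrix.of_apply, prodRow, hx, Nat.testBit_xor, cond_testBit,
    cbit_eq, field5, ← bit_add, ← bit_mul]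
  simp only [Fin.val_zero, Fin.val_one, Fin.val_two, show ((3 : Fin 5) : Nat) = 3 from rfl,
    show ((4 : Fin 5) : Nat) = 4 from rfl, Nat.mul_zero, Nat.mul_one, Nat.add_zero, Nat.zero_add]
  ring

theorem mul_spec {A B C : Nat} (h : prodOK A B C = true) : mat5 A * mat5 B = mat5 C := by
  simp only [prodOK, Bool.and_eq_true, Nat.beq_eq] at h
  ext r k
  rw [mul_entry]
  show _ = if C.testBit (5 * (r : Nat) + k) then (1 : ZMod 2) else 0
  rw [← field5]
  fin_cases r <;> simp_all

theorem mat5_one : mat5 17043521 = 1 := by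
  ext r k
  have h : ∀ r k : Fin 5, Nat.testBit 17043521 (5 * (r : Nat) + k) = decide (r = k) := by decide +kernel
  simp [mat5, h, Matrix.one_apply]

theorem mat5_s : mat5 17043523 = Matrix.transvection 0 1 1 := by
  ext r k
  have h : ∀ r k : Fin 5, Nat.testBit 17043523 (5 * (r : Nat) + k) = decide (r = k ∨ (r = 0 ∧ k = 1)) := by
    decide +kernel
  simp only [mat5, Matrix.of_apply, h, Matrix.transvection, Matrix.add_apply, Matrix.single_apply, Matrix.one_apply]
  fin_cases r <;> fin_cases k <;> simp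

theorem mc_lt (j : Nat) : mc j < 2 ^ 25 := by
  unfold mc field
  refine lt_of_le_of_lt Nat.and_le_right ?_
  show 1 <<< 25 - 1 < 2 ^ 25
  decide

theorem mat5_inj {a b : Nat} (ha : a < 2 ^ 25) (hb : b < 2 ^ 25) (h : mat5 a = mat5 b) : a = b := by
  apply Nat.eq_of_testBit_eq
  intro i
  by_cases hi : i < 25
  · have e := congrFun (congrFun h ⟨i / 5, by omega⟩) ⟨i % 5, by omega⟩
    simp only [mat5, Matrix.of_apply, Nat.div_add_mod] at e
    revert e
    cases a.testBit i <;> cases b.testBit i <;> simp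
  · have hp : 2 ^ 25 ≤ 2 ^ i := Nat.pow_le_pow_right (by norm_num) (by omega)
    rw [Nat.testBit_lt_two_pow (ha.trans_le hp), Nat.testBit_lt_two_pow (hb.trans_le hp)]

theorem key_inj (a b : Fin 21504) (h0 : key0 a = key0 b) (h1 : key1 a = key1 b) : a = b := by
  refine inj_of_sorted (fun j => key0 j + 4096 * key1 j) srtK (fun j hj => ?_) (fun j hj => ?_) a b (by simp [h0, h1])
  · have h := allBelow_spec elem_all j hj
    simp only [elemStep, Bool.and_eq_true, Nat.blt_eq] at h
    exact h.1.1.2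
  · have h := allBelow_spec elem_all (j + 1) hj
    simp only [elemStep, Bool.and_eq_true] at h
    have := h.2
    rw [show Nat.beq (j + 1) 0 = false from rfl, cond_false, Bool.and_eq_true, Nat.blt_eq] at this
    exact this.1

theorem mc_inj (a b : Fin 21504) (h : mc a = mc b) : a = b := by
  refine inj_of_sorted mc srtM (fun j hj => ?_) (fun j hj => ?_) a b h
  · have h := allBelow_spec elem_all j hj
    simp only [elemStep, Bool.and_eq_true, Nat.blt_eq] at h
    exact h.1.2
  · have h := allBelow_spec elem_all (j + 1) hj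
    simp only [elemStep, Bool.and_eq_true] at h
    have := h.2
    rw [show Nat.beq (j + 1) 0 = false from rfl, cond_false, Bool.and_eq_true, Nat.blt_eq, Nat.blt_eq] at this
    exact this.2

theorem exists_iso (s : Matrix.SpecialLinearGroup (Fin 5) (ZMod 2))
    (hs : (s : Matrix (Fin 5) (Fin 5) (ZMod 2)) = Matrix.transvection 0 1 1) :
    Nonempty (CC ≃* Subgroup.centralizer ({s} : Set (Matrix.SpecialLinearGroup (Fin 5) (ZMod 2)))) := by
  classical
  have : Finite GG := Nat.finite_of_card_ne_zero (by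
    obtain ⟨-, hcard⟩ : Cfsg.IsHe GG := Cfsg.Agent.S1695.result
    rw [hcard]; norm_num)
  let S := Subgroup.centralizer ({s} : Set (Matrix.SpecialLinearGroup (Fin 5) (ZMod 2)))
  have hel := fun j hj => allBelow_spec elem_all j hj
  have hks : ∀ (k : Fin 3) (j : Nat), j < 21504 → keyStep k j = true := by
    intro k j hj
    have h := hel j hj
    simp only [elemStep, Bool.and_eq_true] at h
    fin_cases k
    · exact h.1.1.1.1.1.1.2
    · exact h.1.1.1.1.1.2
    · exact h.1.1.1.1.2
  -- the generators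
  have hg : ∀ k : Fin 3, ∃ (c : CC) (m : S), (c : GG) = ev (wrd k) ∧ m.1.1 = mat5 (mg k) := by
    intro k
    have hc := gen_ok
    simp only [Bool.and_eq_true, List.all_eq_true, List.mem_finRange, forall_const, Nat.beq_eq] at hc
    have hcom : ∀ r : Fin 5, prodRow (mg k) 17043523 r = prodRow 17043523 (mg k) r := by
      intro r
      fin_cases k
      · exact (hc.2 r).1.1
      · exact (hc.2 r).1.2
      · exact (hc.2 r).2
    have hinv : ∃ i : Nat, mat5 (mg k) * mat5 i = 1 := by
      fin_cases k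
      · exact ⟨mc 1, (mul_spec hc.1.1.1).trans mat5_one⟩
      · exact ⟨mc 2, (mul_spec hc.1.1.2).trans mat5_one⟩
      · exact ⟨mc 21, (mul_spec hc.1.2).trans mat5_one⟩
    have hdet : (mat5 (mg k)).det = 1 := by
      obtain ⟨i, hi⟩ := hinv
      apply zmod2_ne_zero
      intro h0
      have := congrArg Matrix.det hi
      rw [Matrix.det_mul, h0, zero_mul, Matrix.det_one] at this
      exact zero_ne_one this
    refine ⟨⟨ev (wrd k), Subgroup.mem_centralizer_singleton_iff.mpr ?_⟩,
      ⟨⟨mat5 (mg k), hdet⟩, Subgroup.mem_centralizer_singleton_iff.mpr (Subtype.ext ?_)⟩, rfl, rfl⟩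
    · apply sigma_injective
      ext u
      rw [map_mul, map_mul, Equiv.Perm.mul_apply, Equiv.Perm.mul_apply, sigma_evalW, sigma_zz, sigma_zz, sigma_evalW]
      have h := allBelow_spec comm_ok u u.2
      simp only [Bool.and_eq_true, Nat.beq_eq] at h
      fin_cases k
      · exact h.1.1
      · exact h.1.2
      · exact h.2
    · show mat5 (mg k) * (s : Matrix (Fin 5) (Fin 5) (ZMod 2)) = (s : Matrix (Fin 5) (Fin 5) (ZMod 2)) * mat5 (mg k)
      rw [hs, ← mat5_s]
      ext r c
      rw [mul_entry, mul_entry, hcom]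
  choose gc gm hgc hgm using hg
  let Z : Set (CC × S) := Set.range fun k => (gc k, gm k)
  let D : Subgroup (CC × S) := Subgroup.closure Z
  let Kj : Nat → CC × S → Prop := fun j d =>
    (∀ h : key0 0 < 2058, ((sigma (d.1 : GG) ⟨key0 0, h⟩ : Fin 2058) : Nat) = key0 j) ∧
    (∀ h : key1 0 < 2058, ((sigma (d.1 : GG) ⟨key1 0, h⟩ : Fin 2058) : Nat) = key1 j) ∧ d.2.1.1 = mat5 (mc j)
  have hK0 : Kj 0 1 := by
    have h := hel 0 (by norm_num)
    simp only [elemStep, Bool.and_eq_true, Nat.beq_refl, cond_true, Nat.beq_eq] at h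
    refine ⟨fun _ => by simp, fun _ => by simp, ?_⟩
    rw [h.1.1.1.2.2, mat5_one]
    rfl
  have hstep : ∀ (k : Fin 3) (j : Nat) (d : CC × S), j < 21504 → Kj j d → tb k j < 21504 ∧
      Kj (tb k j) ((gc k, gm k) * d) := by
    intro k j d hj hd
    have h := hks k j hj
    simp only [keyStep, Bool.and_eq_true, Nat.blt_eq, Nat.beq_eq] at h
    refine ⟨h.1.1.1, fun h0 => ?_, fun h0 => ?_, ?_⟩
    · rw [Prod.fst_mul, Subgroup.coe_mul, map_mul, Equiv.Perm.mul_apply, hgc, sigma_evalW, hd.1 h0]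
      exact h.1.1.2
    · rw [Prod.fst_mul, Subgroup.coe_mul, map_mul, Equiv.Perm.mul_apply, hgc, sigma_evalW, hd.2.1 h0]
      exact h.1.2
    · show (gm k).1.1 * d.2.1.1 = _
      rw [hgm, hd.2.2, mul_spec h.2]
  have hP : ∀ d ∈ D, ∃ j < 21504, Kj j d := by
    refine CfsgLib.SporadicB.J3.closure_subset_of_left_closed Z {d | ∃ j < 21504, Kj j d}
      ⟨0, by norm_num, hK0⟩ ?_
    rintro _ ⟨k, rfl⟩ d ⟨j, hj, hd⟩
    exact ⟨_, hstep k j d hj hd⟩
  have hall : ∀ j, j < 21504 → ∃ d ∈ D, Kj j d := by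
    intro j
    induction j using Nat.strongRecOn with
    | _ j ih =>
      intro hj
      by_cases hj0 : j = 0
      · exact ⟨1, D.one_mem, hj0 ▸ hK0⟩
      have h := hel j hj
      simp only [elemStep, Bool.and_eq_true] at h
      have hb := h.1.1.1.2
      rw [show Nat.beq j 0 = false from Bool.eq_false_iff.mpr fun e => hj0 (Nat.eq_of_beq_eq_true e), cond_false] at hb
      simp only [Bool.and_eq_true, Nat.blt_eq, Nat.beq_eq] at hb
      obtain ⟨⟨hv, hsrc⟩, ht⟩ := hb
      obtain ⟨d, hd, hKd⟩ := ih _ hsrc (hsrc.trans hj)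
      have hsel : ∀ (k : Fin 3) (x : Nat),
          (bif Nat.beq (k : Nat) 0 then tb0 x else bif Nat.beq (k : Nat) 1 then tb1 x else tb2 x) = tb k x := by
        intro k x
        fin_cases k <;> rfl
      have hk : tb ⟨evia j, hv⟩ (esrc j) = j := (hsel ⟨evia j, hv⟩ _).symm.trans ht
      refine ⟨(gc ⟨evia j, hv⟩, gm ⟨evia j, hv⟩) * d, D.mul_mem (Subgroup.subset_closure ⟨_, rfl⟩) hd, ?_⟩
      have hfin := (hstep ⟨evia j, hv⟩ _ d (hsrc.trans hj) hKd).2
      rwa [hk] at hfin
  choose dj hdjD hdjK using fun j : Fin 21504 => hall j j.2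
  have h00 : key0 0 < 2058 ∧ key1 0 < 2058 := by
    have h := hel 0 (by norm_num)
    simp only [elemStep, Bool.and_eq_true, Nat.blt_eq] at h
    exact ⟨h.1.1.1.1.1.1.1.1, h.1.1.1.1.1.1.1.2⟩
  let keyC : CC → Fin 2058 × Fin 2058 := fun c => (sigma (c : GG) ⟨key0 0, h00.1⟩, sigma (c : GG) ⟨key1 0, h00.2⟩)
  have hkeyinj : Function.Injective fun j : Fin 21504 => keyC (dj j).1 := by
    intro a b hab
    refine key_inj a b ?_ ?_
    · rw [← (hdjK a).1 h00.1, ← (hdjK b).1 h00.1]
      exact congrArg (fun p => (p.1 : Fin 2058).val) hab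
    · rw [← (hdjK a).2.1 h00.2, ← (hdjK b).2.1 h00.2]
      exact congrArg (fun p => (p.2 : Fin 2058).val) hab
  have hbij : Function.Bijective fun j : Fin 21504 => (dj j).1 := by
    refine (Nat.bijective_iff_injective_and_card _).mpr ⟨fun a b e => hkeyinj (congrArg keyC e), ?_⟩
    rw [Nat.card_fin]
    refine le_antisymm ?_ card_CC_le
    have := Nat.card_le_card_of_injective (fun j : Fin 21504 => (dj j).1) (fun a b e => hkeyinj (congrArg keyC e))
    rwa [Nat.card_fin] at this
  have hkinj : Function.Injective keyC := by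
    intro x y hxy
    obtain ⟨a, rfl⟩ := hbij.2 x
    obtain ⟨b, rfl⟩ := hbij.2 y
    rw [hkeyinj (a₁ := a) (a₂ := b) hxy]
  let p1 : D →* CC := (MonoidHom.fst _ _).comp D.subtype
  let p2 : D →* S := (MonoidHom.snd _ _).comp D.subtype
  have hKinj1 : ∀ (j : Nat), j < 21504 → ∀ d, Kj j d → keyC d.1 = keyC 1 → j = 0 := by
    intro j hj d hd he
    have := key_inj ⟨j, hj⟩ ⟨0, by norm_num⟩ ?_ ?_
    · exact congrArg Fin.val this
    · rw [← hd.1 h00.1]
      exact (congrArg (fun p => (p.1 : Fin 2058).val) he).trans (show ((keyC 1).1 : Nat) = key0 0 by simp [keyC])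
    · rw [← hd.2.1 h00.2]
      exact (congrArg (fun p => (p.2 : Fin 2058).val) he).trans (show ((keyC 1).2 : Nat) = key1 0 by simp [keyC])
  have hp1 : Function.Injective p1 := by
    rw [← MonoidHom.ker_eq_bot_iff, Subgroup.eq_bot_iff_forall]
    rintro ⟨⟨c, m⟩, hd⟩ hk
    have hc : c = 1 := MonoidHom.mem_ker.mp hk
    obtain ⟨j, hj, hKj⟩ := hP _ hd
    have hj0 := hKinj1 j hj _ hKj (by rw [hc])
    refine Subtype.ext (Prod.ext hc (Subtype.ext (Subtype.ext ?_)))
    show m.1.1 = 1
    rw [hKj.2.2, hj0, ← mat5_one]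
    have h := hel 0 (by norm_num)
    simp only [elemStep, Bool.and_eq_true, Nat.beq_refl, cond_true, Nat.beq_eq] at h
    rw [h.1.1.1.2.2]
  have hp2 : Function.Injective p2 := by
    rw [← MonoidHom.ker_eq_bot_iff, Subgroup.eq_bot_iff_forall]
    rintro ⟨⟨c, m⟩, hd⟩ hk
    have hm : m = 1 := MonoidHom.mem_ker.mp hk
    obtain ⟨j, hj, hKj⟩ := hP _ hd
    have hj0 : j = 0 := by
      have e : mat5 (mc j) = mat5 (mc 0) := by
        rw [← hKj.2.2, ← hK0.2.2]
        simp only [hm]
        rfl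
      exact congrArg Fin.val (mc_inj ⟨j, hj⟩ ⟨0, by norm_num⟩ (mat5_inj (mc_lt _) (mc_lt _) e))
    subst hj0
    refine Subtype.ext (Prod.ext (hkinj ?_) hm)
    exact Prod.ext (Fin.ext ((hKj.1 h00.1).trans (by simp [keyC]))) (Fin.ext ((hKj.2.1 h00.2).trans (by simp [keyC])))
  have hp1s : Function.Surjective p1 := fun c => by
    obtain ⟨a, rfl⟩ := hbij.2 c
    exact ⟨⟨dj a, hdjD a⟩, rfl⟩
  have e1 : D ≃* CC := MulEquiv.ofBijective p1 ⟨hp1, hp1s⟩
  have hp2b : Function.Bijective p2 := by
    refine (Nat.bijective_iff_injective_and_card _).mpr ⟨hp2, le_antisymm (Nat.card_le_card_of_injective p2 hp2) ?_⟩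
    refine (card_transCent_le s hs).trans ?_
    rw [Nat.card_congr e1.toEquiv, ← Nat.card_eq_of_bijective _ hbij, Nat.card_fin]
  exact ⟨e1.symm.trans (MulEquiv.ofBijective p2 hp2b)⟩

end CfsgLib.SporadicB.HeCent
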